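import Cfsg.Agent.PhanSU.Build

/-!
Subgroups of the three-dimensional special unitary group isomorphic to the two-dimensional one fix
a nondegenerate point.
-/

set_option autoImplicit false
set_option linter.style.haveILetI false

open scoped Classical

namespace Cfsg.Agent.PhanSU

open Cfsg.Agent.Classical.U Matrix

universe u v

noncomputable section

variable {F : Type u} [Field F] {q : ℕ}

/-- Orthogonal isotropic vectors in dimension three are proportional. -/
theorem isotropic_proportional (hF : SqField F q) {r r' : Fin 3 → F} (h0 : r ≠ 0)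
    (hr : herm q r r = 0) (hr' : herm q r' r' = 0) (h : herm q r' r = 0) :
    ∃ c : F, r' = c • r := by
  by_contra hne
  push Not at hne
  have hT : ∀ v : Fin 3 → F, v ∈ supp (Finset.univ : Finset (Fin 3)) := fun v l hl =>
    absurd (Finset.mem_univ l) hl
  obtain ⟨y, -, -, hyr, hy1⟩ := exists_prescribed hF (isON_empty hF) (T := Finset.univ)
    (fun p hp => absurd hp (Finset.notMem_empty p)) (hT r) h0 hr
    (fun p hp => absurd hp (Finset.notMem_empty p)) one_ne_zero (one_pow q)
  have hry : herm q r y = 1 := by rw [← hF.herm_symm, hyr, one_pow]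
  set r2 := r' - herm q r' y • r with hr2
  have h20 : r2 ≠ 0 := fun e => hne (herm q r' y) (sub_eq_zero.mp e)
  have h22 : herm q r2 r2 = 0 := by
    simp only [hr2, herm_sub_left, hF.herm_sub_right, herm_smul_left, herm_smul_right, hr, hr', h,
      herm_comm_zero hF h, mul_zero, sub_zero]
  have h2r : herm q r2 r = 0 := by
    rw [hr2, herm_sub_left, herm_smul_left, h, hr, mul_zero, sub_zero]
  have h2y : herm q r2 y = 0 := by
    rw [hr2, herm_sub_left, herm_smul_left, hry, mul_one, sub_self]
  obtain ⟨z, -, hzy, hzr2, hz1⟩ := exists_prescribed hF (isON_singleton hF hy1) (T := Finset.univ)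
    (fun p _ => hT p) (hT r2) h20 h22
    (fun p hp => by rw [Finset.mem_singleton.mp hp]; exact h2y) one_ne_zero (one_pow q)
  have hzy' : herm q z y = 0 := hzy y (Finset.mem_singleton_self y)
  have hli : LinearIndependent F ![r, r2, y, z] := by
    rw [Fintype.linearIndependent_iff]
    intro g hg
    simp only [Fin.sum_univ_four, Matrix.cons_val_zero, Matrix.cons_val_one, Matrix.cons_val_two,
      Matrix.cons_val_three, Matrix.tail_cons, Matrix.head_cons] at hg
    have e2 := congrArg (fun v => herm q v r2) hg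
    simp only [herm_add_left, herm_smul_left, h22, herm_comm_zero hF h2r,
      herm_comm_zero hF h2y, hzr2, mul_zero, mul_one, zero_add, herm_zero_left] at e2
    have e1 := congrArg (fun v => herm q v r) hg
    simp only [herm_add_left, herm_smul_left, hr, h2r, hyr, e2, mul_zero, zero_mul, mul_one,
      zero_add, add_zero, herm_zero_left] at e1
    rw [e1, e2, zero_smul, zero_smul, add_zero, add_zero] at hg
    have e0 := congrArg (fun v => herm q v y) hg
    simp only [herm_add_left, herm_smul_left, hry, h2y, mul_zero, mul_one, add_zero,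
      herm_zero_left] at e0
    rw [e0, zero_smul, zero_add] at hg
    have e3 := (smul_eq_zero.mp hg).resolve_right h20
    intro i
    fin_cases i <;> assumption
  have := hli.fintype_card_le_finrank
  simp at this

/-- Homomorphisms from the special linear group to commutative groups are trivial. -/
theorem sl2_hom_trivial {K : Type u} [Field K] [Finite K] (hK : 4 ≤ Nat.card K) {M : Type v}
    [CommGroup M] (z : Matrix.SpecialLinearGroup (Fin 2) K →* M)
    (m : Matrix.SpecialLinearGroup (Fin 2) K) : z m = 1 := by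
  obtain ⟨a, ha0, ha⟩ : ∃ a : K, a ≠ 0 ∧ a * a ≠ 1 := by
    by_contra hcon
    push Not at hcon
    haveI := Fintype.ofFinite K
    have h1 : (Finset.univ : Finset K) ⊆ {0, 1, -1} := fun x _ => by
      by_cases hx : x = 0
      · simp [hx]
      · rcases mul_self_eq_one_iff.mp (hcon x hx) with h | h <;> simp [h]
    have h2 := (Finset.card_le_card h1).trans Finset.card_le_three
    rw [Finset.card_univ, ← Nat.card_eq_fintype_card] at h2
    omega
  let k : Matrix.SpecialLinearGroup (Fin 2) K :=
    ⟨!![a, 0; 0, a⁻¹], by simp [Matrix.det_fin_two, ha0]⟩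
  have hup : ∀ c, z (AutPSL.up c) = 1 := by
    intro c
    have h1 := congrArg z (AutPSL.conj_up_of_lower_zero k (by simp [k]) (c / (a * a - 1)))
    rw [map_mul, map_mul, map_inv, mul_comm (z k), mul_inv_cancel_right] at h1
    have h2 : (k : Matrix (Fin 2) (Fin 2) K) 0 0 ^ 2 * (c / (a * a - 1))
        = c + c / (a * a - 1) := by
      simp only [k]
      rw [show ((!![a, 0; 0, a⁻¹] : Matrix (Fin 2) (Fin 2) K) 0 0) = a from rfl]
      rw [show a ^ 2 = (a * a - 1) + 1 by ring, add_mul, mul_div_cancel₀ _ (sub_ne_zero.mpr ha),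
        one_mul]
    rw [h2, AutPSL.up_add, map_mul] at h1
    exact mul_eq_right.mp h1.symm
  have hlo : ∀ c, z (AutPSL.lo c) = 1 := by
    intro c
    rw [← neg_neg c, ← AutPSL.weyl_up, map_mul, map_mul, hup, mul_one, map_inv, mul_inv_cancel]
  haveI : Nontrivial (Fin 2) := inferInstance
  induction m using Cfsg.Agent.Linear.transvection_induction with
  | hmul A B hA hB => rw [map_mul, hA, hB, one_mul]
  | htransvec i j hij c =>
    fin_cases i <;> fin_cases j <;> first
      | exact absurd rfl hij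
      | exact hup c
      | exact hlo c

theorem app_eigen_herm {t : Sug 3 F q} (hne : (2 : F) ≠ 0) {a b : Fin 3 → F} (ha : app t a = a)
    (hb : app t b = -b) (hF : SqField F q) : herm q a b = 0 := by
  have h := app_herm t a b
  rw [ha, hb, hF.herm_neg_right] at h
  have h2 : (2 : F) * herm q a b = 0 := by linear_combination -h
  exact (mul_eq_zero.mp h2).resolve_left hne

/-- A character-free common eigenvector is fixed. -/
theorem fixed_of_line (hF : SqField F q) (hq : 4 ≤ q) (ι : Cfsg.SU 2 F q →* Sug 3 F q)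
    {w : Fin 3 → F} (hw : w ≠ 0) (h : ∀ x, ∃ c : F, app (ι x) w = c • w) :
    ∀ x, app (ι x) w = w := by
  obtain ⟨hfin, -⟩ := id hF
  obtain ⟨K, hcard, hK⟩ := exists_fixed_subfield hF
  obtain ⟨P, e, -, -⟩ := exists_su2_sl2 hF hK
  choose c hc using h
  have hinj : ∀ {a b : F}, a • w = b • w → a = b := fun e => smul_left_injective F hw e
  have hc1 : ∀ x, c x ≠ 0 := fun x e => by
    have h1 := hc x
    rw [e, zero_smul] at h1
    exact hw (by rw [← app_inv_app (ι x) w, h1, app_zero])
  have hmul : ∀ x y, c (x * y) = c x * c y := fun x y => hinj (by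
    rw [← hc, map_mul, app_mul, hc y, app_smul, hc x, smul_smul, mul_comm])
  let z : Matrix.SpecialLinearGroup (Fin 2) K →* Fˣ :=
    MonoidHom.mk' (fun m => Units.mk0 (c (e m)) (hc1 _)) fun a b => Units.ext (by
      show c (e (a * b)) = c (e a) * c (e b)
      rw [map_mul, hmul])
  intro x
  have h1 := congrArg Units.val (sl2_hom_trivial (hcard.symm ▸ hq) z (e.symm x))
  simp only [z, MonoidHom.mk'_apply, Units.val_mk0, MulEquiv.apply_symm_apply, Units.val_one] at h1
  rw [hc, h1, one_smul]

/-- The odd case: the central involution. -/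
theorem exists_axis_odd (hF : SqField F q) (hq : 4 ≤ q) (h2 : (2 : F) ≠ 0)
    (ι : Cfsg.SU 2 F q →* Sug 3 F q) (hι : Function.Injective ι) :
    ∃ u : Fin 3 → F, herm q u u = 1 ∧ ∀ x, app (ι x) u = u := by
  obtain ⟨m, hm⟩ := exists_su2 hF (a := (-1 : F)) (b := 0) (by
    rw [hF.neg_pow, one_pow, zero_mul, add_zero]; norm_num)
  rw [hF.neg_pow, one_pow, zero_pow hF.q_ne_zero, neg_zero] at hm
  have hmI : sm m = -1 := by
    rw [hm]; ext i j; fin_cases i <;> fin_cases j <;> simp
  have hm2 : m * m = 1 := sm_ext (by rw [sm_mul, hmI, neg_mul_neg, one_mul]; rfl)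
  have hmc : ∀ x, m * x = x * m := fun x => sm_ext (by
    rw [sm_mul, sm_mul, hmI, neg_one_mul, mul_neg_one])
  set t := ι m with ht
  have ht2 : ∀ v, app t (app t v) = v := fun v => by
    rw [← app_mul, ht, ← map_mul, hm2, map_one, app_one]
  have htc : ∀ x v, app (ι x) (app t v) = app t (app (ι x) v) := fun x v => by
    rw [← app_mul, ← app_mul, ht, ← map_mul, ← map_mul, hmc]
  have ht1 : t ≠ 1 := fun e => by
    have h := congrArg sm (hι (e.trans (map_one ι).symm))
    rw [hmI, sm_one] at h
    have := congrFun (congrFun h 0) 0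
    simp at this
    exact h2 (by linear_combination -this)
  let E : F → Submodule F (Fin 3 → F) := fun s =>
    LinearMap.ker ((t.1.1 : (Fin 3 → F) →ₗ[F] (Fin 3 → F)) - s • LinearMap.id)
  have hE : ∀ s v, v ∈ E s ↔ app t v = s • v := fun s v => by
    simp [E, sub_eq_zero, app]
  have hsplit : ∀ v, v + app t v ∈ E 1 ∧ v - app t v ∈ E (-1) := fun v => by
    rw [hE, hE, app_add, app_sub, ht2]
    exact ⟨by rw [one_smul, add_comm], by module⟩
  have hE1 : E 1 ≠ ⊥ := by
    intro e
    have hneg : ∀ v, app t v = -v := fun v => by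
      have := (hsplit v).1
      rw [e, Submodule.mem_bot] at this
      exact eq_neg_of_add_eq_zero_right this
    have hd : LinearEquiv.det t.1.1 = 1 := t.2
    have hlin : (t.1.1 : (Fin 3 → F) →ₗ[F] (Fin 3 → F)) = (-1 : F) • LinearMap.id :=
      LinearMap.ext fun v => by simpa [app] using hneg v
    have hd2 := congrArg Units.val hd
    rw [LinearEquiv.coe_det, hlin, LinearMap.det_smul, Module.finrank_fintype_fun_eq_card,
      Fintype.card_fin, LinearMap.det_id, mul_one, Units.val_one] at hd2
    exact h2 (by linear_combination -hd2)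
  have hE2 : E (-1) ≠ ⊥ := by
    intro e
    exact ht1 (ext_basis fun l => by
      have := (hsplit (dd l)).2
      rw [e, Submodule.mem_bot, sub_eq_zero] at this
      rw [← this, app_one])
  have hsum : E 1 ⊔ E (-1) = ⊤ := by
    refine top_unique fun v _ => Submodule.mem_sup.mpr
      ⟨(2 : F)⁻¹ • (v + app t v), Submodule.smul_mem _ _ (hsplit v).1,
        (2 : F)⁻¹ • (v - app t v), Submodule.smul_mem _ _ (hsplit v).2, ?_⟩
    rw [← smul_add, add_add_sub_cancel, ← two_smul F v, smul_smul, inv_mul_cancel₀ h2, one_smul]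
  have hinf : E 1 ⊓ E (-1) = ⊥ := by
    refine eq_bot_iff.mpr fun v hv => ?_
    obtain ⟨a, b⟩ := Submodule.mem_inf.mp hv
    rw [hE, one_smul] at a
    rw [hE, a] at b
    have : (2 : F) • v = 0 := by rw [two_smul]; conv_lhs => arg 1; rw [b]
                                 simp
    exact (Submodule.mem_bot F).mpr ((smul_eq_zero.mp this).resolve_left h2)
  have hdim := Submodule.finrank_sup_add_finrank_inf_eq (E 1) (E (-1))
  rw [hsum, hinf, finrank_top, finrank_bot, Module.finrank_fintype_fun_eq_card, Fintype.card_fin,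
    add_zero] at hdim
  have h11 := Submodule.one_le_finrank_iff.mpr hE1
  have h12 := Submodule.one_le_finrank_iff.mpr hE2
  obtain ⟨s, hs, hs1⟩ : ∃ s : F, (s = 1 ∨ s = -1) ∧ Module.finrank F (E s) = 1 := by
    by_cases h : Module.finrank F (E 1) = 1
    · exact ⟨1, Or.inl rfl, h⟩
    · exact ⟨-1, Or.inr rfl, by omega⟩
  obtain ⟨w, hw0, hw⟩ := finrank_eq_one_iff'.mp hs1
  have hw0' : (w : Fin 3 → F) ≠ 0 := fun e => hw0 (Subtype.ext e)
  have hfix := fixed_of_line hF hq ι hw0' fun x => by
    have hmem : app (ι x) w ∈ E s := by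
      rw [hE, ← htc, (hE s _).1 w.2, app_smul]
    obtain ⟨c, hc⟩ := hw ⟨_, hmem⟩
    exact ⟨c, (congrArg Subtype.val hc).symm⟩
  have hs' : s = 1 := by
    have h := (hE s _).1 w.2
    rw [ht, hfix] at h
    exact (smul_left_injective F hw0' (by simpa using h.symm))
  subst hs'
  have hww : herm q (w : Fin 3 → F) w ≠ 0 := by
    intro e
    refine hw0' (hF.eq_zero_of_herm _ fun v => ?_)
    have h1 : ∀ a ∈ E 1, herm q (w : Fin 3 → F) a = 0 := fun a ha => by
      obtain ⟨c, hc⟩ := hw ⟨a, ha⟩
      rw [← show c • (w : Fin 3 → F) = a from congrArg Subtype.val hc, herm_smul_right, e, mul_zero]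
    have hv : v ∈ E 1 ⊔ E (-1) := hsum ▸ Submodule.mem_top
    obtain ⟨a, ha, b, hb, rfl⟩ := Submodule.mem_sup.mp hv
    rw [hF.herm_add_right, h1 a ha, app_eigen_herm (t := t) h2 (by simpa using (hE 1 _).1 w.2)
      (by simpa using (hE (-1) b).1 hb) hF, add_zero]
  obtain ⟨c, hc, hc1⟩ := exists_scale hF hww
  exact ⟨c • (w : Fin 3 → F), hc1, fun x => by rw [app_smul, hfix]⟩

/-- An involution in characteristic two is a transvection. -/
theorem exists_centre (hF : SqField F q) (h2 : (2 : F) = 0) {t : Sug 3 F q} (ht : t * t = 1)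
    (ht1 : t ≠ 1) : ∃ r : Fin 3 → F, r ≠ 0 ∧ herm q r r = 0 ∧
      (∀ v, ∃ c : F, app t v - v = c • r) ∧ (∀ v, herm q v r = 0 ↔ app t v = v) := by
  let N : (Fin 3 → F) →ₗ[F] (Fin 3 → F) :=
    (t.1.1 : (Fin 3 → F) →ₗ[F] (Fin 3 → F)) - LinearMap.id
  have hN : ∀ v, N v = app t v - v := fun v => rfl
  have htt : ∀ v, app t (app t v) = v := fun v => by rw [← app_mul, ht, app_one]
  have hNN : ∀ v, app t (N v) = N v := fun v => by
    rw [hN, app_sub, htt]
    have : (2 : F) • (v - app t v) = 0 := by rw [h2, zero_smul]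
    rw [← sub_eq_zero, ← this, two_smul]
    abel
  have hle : LinearMap.range N ≤ LinearMap.ker N := by
    rintro _ ⟨v, rfl⟩
    rw [LinearMap.mem_ker, hN, hNN, sub_self]
  have hrn := LinearMap.finrank_range_add_finrank_ker N
  rw [Module.finrank_fintype_fun_eq_card, Fintype.card_fin] at hrn
  have hle' := Submodule.finrank_mono hle
  have hne : LinearMap.range N ≠ ⊥ := fun e => ht1 (ext_basis fun l => by
    have : N (dd l) = 0 := by
      have := LinearMap.mem_range_self N (dd l)
      rwa [e, Submodule.mem_bot] at this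
    rw [hN, sub_eq_zero] at this
    rw [this, app_one])
  have h1 := Submodule.one_le_finrank_iff.mpr hne
  obtain ⟨⟨r, hrm⟩, hr0, hr⟩ := finrank_eq_one_iff'.mp (show Module.finrank F (LinearMap.range N) = 1 by omega)
  have hr0' : r ≠ 0 := fun e => hr0 (Subtype.ext e)
  have hall : ∀ v, ∃ c : F, app t v - v = c • r := fun v => by
    obtain ⟨c, hc⟩ := hr ⟨N v, LinearMap.mem_range_self N v⟩
    exact ⟨c, (hN v).symm.trans (congrArg Subtype.val hc).symm⟩
  obtain ⟨w, hw⟩ := hrm
  have hadj : ∀ a b, herm q (N a) b = herm q a (N b) := fun a b => by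
    rw [hN, hN, herm_sub_left, hF.herm_sub_right]
    congr 1
    conv_lhs => rw [← app_herm t, htt]
  have hiff : ∀ v, herm q v r = 0 ↔ app t v = v := fun v => by
    refine ⟨fun h => ?_, fun h => ?_⟩
    · rw [← sub_eq_zero, ← hN]
      refine hF.eq_zero_of_herm _ fun x => ?_
      obtain ⟨c, hc⟩ := hall x
      rw [hadj, hN, hc, herm_smul_right, h, mul_zero]
    · rw [← hw, ← hadj, hN, h, sub_self, herm_zero_left]
  refine ⟨r, hr0', (hiff r).2 ?_, hall, hiff⟩
  rw [← hw, hNN]

/-- An elementary abelian group of transvections has one centre. -/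
theorem exists_common_centre (hF : SqField F q) (h2 : (2 : F) = 0) {A : Type v}
    (f : A → Sug 3 F q) (hsq : ∀ a, f a * f a = 1) (hcomm : ∀ a b, f a * f b = f b * f a)
    (a0 : A) (h0 : f a0 ≠ 1) : ∃ r : Fin 3 → F, r ≠ 0 ∧ herm q r r = 0 ∧
      (∀ a v, herm q v r = 0 → app (f a) v = v) ∧
      (∀ a v, ∃ c : F, app (f a) v - v = c • r) := by
  obtain ⟨r, hr0, hrr, hrN, hrK⟩ := exists_centre hF h2 (hsq a0) h0
  refine ⟨r, hr0, hrr, ?_⟩
  suffices h : ∀ a, (∀ v, herm q v r = 0 → app (f a) v = v) ∧
      (∀ v, ∃ c : F, app (f a) v - v = c • r) from ⟨fun a => (h a).1, fun a => (h a).2⟩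
  intro a
  by_cases ha : f a = 1
  · exact ⟨fun v _ => by rw [ha, app_one], fun v => ⟨0, by rw [ha, app_one, sub_self, zero_smul]⟩⟩
  obtain ⟨s, hs0, hss, hsN, hsK⟩ := exists_centre hF h2 (hsq a) ha
  -- the second transvection fixes the first centre
  obtain ⟨v0, hv0⟩ : ∃ v, app (f a0) v ≠ v := by
    by_contra hcon
    push Not at hcon
    exact h0 (ext_basis fun l => by rw [hcon, app_one])
  obtain ⟨c, hc⟩ := hrN v0
  have hc0 : c ≠ 0 := fun e => hv0 (by rwa [e, zero_smul, sub_eq_zero] at hc)
  have hr' : ∃ d : F, app (f a) r = d • r := by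
    obtain ⟨c', hc'⟩ := hrN (app (f a) v0)
    refine ⟨c' / c, smul_right_injective _ hc0 ?_⟩
    show c • app (f a) r = c • (c' / c) • r
    rw [smul_smul, mul_div_cancel₀ _ hc0, ← hc', ← app_smul, ← hc, app_sub, ← app_mul, ← app_mul,
      hcomm]
  obtain ⟨d, hd⟩ := hr'
  have hd1 : d = 1 := by
    have h := congrArg (fun g => app g r) (hsq a)
    simp only [app_mul, hd, app_smul, smul_smul, app_one] at h
    have h1 : d * d = 1 := smul_left_injective F hr0 (by simpa using h)
    have h3 : (d - 1) * (d - 1) = 0 := by linear_combination h1 + (1 - d) * h2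
    exact sub_eq_zero.mp (mul_self_eq_zero.mp h3)
  rw [hd1, one_smul] at hd
  obtain ⟨k, hk⟩ := isotropic_proportional hF hs0 hss hrr ((hsK r).2 hd)
  have hk0 : k ≠ 0 := fun e => hr0 (by rw [hk, e, zero_smul])
  refine ⟨fun v hv => (hsK v).1 ?_, fun v => ?_⟩
  · rw [hk, herm_smul_right] at hv
    exact (mul_eq_zero.mp hv).resolve_left (pow_ne_zero _ hk0)
  · obtain ⟨e, he⟩ := hsN v
    exact ⟨e / k, by rw [he, hk, smul_smul, div_mul_cancel₀ _ hk0]⟩

/-- The even case: the root subgroups. -/
theorem exists_axis_even (hF : SqField F q) (h2 : (2 : F) = 0)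
    (ι : Cfsg.SU 2 F q →* Sug 3 F q) (hι : Function.Injective ι) :
    ∃ u : Fin 3 → F, herm q u u = 1 ∧ ∀ x, app (ι x) u = u := by
  obtain ⟨hfin, -⟩ := id hF
  obtain ⟨K, hcard, hK⟩ := exists_fixed_subfield hF
  obtain ⟨P, e, -, -⟩ := exists_su2_sl2 hF hK
  have h2K : (2 : K) = 0 := Subtype.ext h2
  let j : Matrix.SpecialLinearGroup (Fin 2) K →* Sug 3 F q := ι.comp e.toMonoidHom
  have hj : Function.Injective j := hι.comp e.injective
  have hne : ∀ (m : Matrix.SpecialLinearGroup (Fin 2) K), m ≠ 1 → j m ≠ 1 := fun m hm h =>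
    hm (hj (h.trans (map_one j).symm))
  have hu1 : (AutPSL.up (1 : K)) ≠ 1 := fun h => by
    have := congrFun (congrFun (congrArg Subtype.val h) 0) 1
    rw [AutPSL.up_coe] at this
    simp at this
  have hl1 : (AutPSL.lo (1 : K)) ≠ 1 := fun h => by
    have := congrFun (congrFun (congrArg Subtype.val h) 1) 0
    rw [AutPSL.lo_coe] at this
    simp at this
  have hdbl : ∀ a : K, a + a = 0 := fun a => by linear_combination a * h2K
  obtain ⟨r, hr0, hrr, hrfix, hrim⟩ := exists_common_centre hF h2 (fun a => j (AutPSL.up a))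
    (fun a => by rw [← map_mul, ← AutPSL.up_add, hdbl, AutPSL.up_zero, map_one])
    (fun a b => by rw [← map_mul, ← map_mul, ← AutPSL.up_add, ← AutPSL.up_add, add_comm])
    1 (hne _ hu1)
  obtain ⟨s, hs0, hss, hsfix, hsim⟩ := exists_common_centre hF h2 (fun a => j (AutPSL.lo a))
    (fun a => by
      rw [← map_mul, ← AutPSL.lo_add, hdbl,
        show AutPSL.lo (0 : K) = 1 from SpecialLinearGroup.transvection_coeff_zero _, map_one])
    (fun a b => by rw [← map_mul, ← map_mul, ← AutPSL.lo_add, ← AutPSL.lo_add, add_comm])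
    1 (hne _ hl1)
  let Φ : (Fin 3 → F) →ₗ[F] (F × F) :=
    { toFun := fun v => (herm q v r, herm q v s)
      map_add' := fun v w => by simp [herm_add_left]
      map_smul' := fun c v => by simp [herm_smul_left] }
  obtain ⟨u, hu0, hur, hus⟩ : ∃ u, u ≠ 0 ∧ herm q u r = 0 ∧ herm q u s = 0 := by
    have hker : LinearMap.ker Φ ≠ ⊥ := by
      intro h
      have := LinearMap.finrank_le_finrank_of_injective (LinearMap.ker_eq_bot.mp h)
      simp [Module.finrank_prod] at this
    obtain ⟨u, hu, hu0⟩ := Submodule.exists_mem_ne_zero_of_ne_bot hker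
    rw [LinearMap.mem_ker] at hu
    exact ⟨u, hu0, congrArg Prod.fst hu, congrArg Prod.snd hu⟩
  have hfix : ∀ m, app (j m) u = u := by
    haveI : Nontrivial (Fin 2) := inferInstance
    intro m
    induction m using Cfsg.Agent.Linear.transvection_induction with
    | hmul A B hA hB => rw [map_mul, app_mul, hB, hA]
    | htransvec i k hik c =>
      fin_cases i <;> fin_cases k <;> first
        | exact absurd rfl hik
        | exact hrfix c u hur
        | exact hsfix c u hus
  have huu : herm q u u ≠ 0 := by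
    intro h
    obtain ⟨a, ha⟩ := isotropic_proportional hF hr0 hrr h hur
    obtain ⟨b, hb⟩ := isotropic_proportional hF hs0 hss h hus
    -- then the two root groups have the same centre and commute
    have ha0 : a ≠ 0 := fun e => hu0 (by rw [ha, e, zero_smul])
    have hb0 : b ≠ 0 := fun e => hu0 (by rw [hb, e, zero_smul])
    have hrs : r = (b / a) • s := by
      rw [div_eq_inv_mul, mul_smul, ← hb, ha, smul_smul, inv_mul_cancel₀ ha0, one_smul]
    have hcm : j (AutPSL.up 1) * j (AutPSL.lo 1) = j (AutPSL.lo 1) * j (AutPSL.up 1) := by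
      refine ext_basis fun l => ?_
      obtain ⟨c1, hc1⟩ := hrim 1 (dd l)
      obtain ⟨c2, hc2⟩ := hsim 1 (dd l)
      have f1 : app (j (AutPSL.up (1 : K))) s = s := hrfix 1 s (by
        rw [hrs, herm_smul_right, hss, mul_zero])
      have f2 : app (j (AutPSL.lo (1 : K))) r = r := hsfix 1 r (by
        rw [hrs, herm_smul_left, hss, mul_zero])
      rw [sub_eq_iff_eq_add] at hc1 hc2
      rw [app_mul, app_mul, hc2, hc1, app_add, app_add, app_smul, app_smul, f1, f2, hc1, hc2]
      abel
    rw [← map_mul, ← map_mul] at hcm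
    have h := congrFun (congrFun (congrArg Subtype.val (hj hcm)) 0) 0
    simp only [Matrix.SpecialLinearGroup.coe_mul, AutPSL.up_coe, AutPSL.lo_coe] at h
    simp [Matrix.mul_apply, Fin.sum_univ_two] at h
  obtain ⟨c, -, hc1⟩ := exists_scale hF huu
  exact ⟨c • u, hc1, fun x => by
    have := hfix (e.symm x)
    simp only [j, MonoidHom.comp_apply, MulEquiv.coe_toMonoidHom, MulEquiv.apply_symm_apply] at this
    rw [app_smul, this]⟩

theorem exists_axis (hF : SqField F q) (hq : 4 ≤ q) (ι : Cfsg.SU 2 F q →* Sug 3 F q)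
    (hι : Function.Injective ι) :
    ∃ u : Fin 3 → F, herm q u u = 1 ∧ ∀ x, app (ι x) u = u := by
  by_cases h2 : (2 : F) = 0
  · exact exists_axis_even hF h2 ι hι
  · exact exists_axis_odd hF hq h2 ι hι

end

end Cfsg.Agent.PhanSU
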