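import Cfsg.Agent.PhanSU.Build
import Cfsg.Agent.Classical.USimple

/-!
In a quotient of the four-dimensional unitary group over nine elements no element of order three
centralises a three-dimensional unitary subgroup.
-/

set_option autoImplicit false
set_option linter.style.haveILetI false

open scoped Classical

namespace Cfsg.Agent.PhanSU

open Cfsg.Agent.Classical.U

universe u v w

noncomputable section

/-- Endomorphisms of order seven of spaces of dimension at most two over nine elements. -/
theorem end_pow_seven {K : Type u} [Field K] [Finite K] (hK : Nat.card K = 9) {M : Type v}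
    [AddCommGroup M] [Module K M] [FiniteDimensional K M] (hd : Module.finrank K M ≤ 2)
    {T : Module.End K M} (hT : T ^ 7 = 1) : T = 1 := by
  haveI := Fintype.ofFinite K
  let b := Module.finBasis K M
  let U : (Module.End K M)ˣ := Units.ofPowEqOne T 7 hT (by norm_num)
  let e : (Module.End K M)ˣ ≃* GL (Fin (Module.finrank K M)) K :=
    Units.mapEquiv (algEquivMatrix b).toMulEquiv
  have h7 : e U ^ 7 = 1 := by
    rw [← map_pow, show U ^ 7 = 1 from Units.ext (by simpa [U] using hT), map_one]
  have hord : orderOf (e U) = 1 := by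
    refine Nat.eq_one_of_dvd_coprimes (?_ : Nat.Coprime 7 (Nat.card (GL (Fin (Module.finrank K M)) K)))
      (orderOf_dvd_of_pow_eq_one h7) (orderOf_dvd_natCard _)
    rw [Matrix.card_GL_field, ← Nat.card_eq_fintype_card, hK]
    have key : ∀ d ≤ 2, Nat.Coprime 7 (∏ i : Fin d, (9 ^ d - 9 ^ (i : ℕ))) := by
      intro d hd
      interval_cases d <;> simp [Fin.prod_univ_succ] <;> norm_num
    exact key _ hd
  have h1 : U = 1 := e.injective ((orderOf_eq_one_iff.1 hord).trans (map_one e).symm)
  simpa [U] using congrArg Units.val h1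

/-- An element of order seven is trivial between two invariant subspaces at most two dimensions
apart. -/
theorem apply_sub_mem {K : Type u} [Field K] [Finite K] (hK : Nat.card K = 9) {M : Type v}
    [AddCommGroup M] [Module K M] [FiniteDimensional K M] {P : Module.End K M}
    (h7 : ∀ x, P (P (P (P (P (P (P x)))))) = x) (S S' : Submodule K M) (hle : S' ≤ S)
    (hS : ∀ x ∈ S, P x ∈ S) (hS' : ∀ x ∈ S', P x ∈ S')
    (hd : Module.finrank K S ≤ Module.finrank K S' + 2) {x : M} (hx : x ∈ S) : P x - x ∈ S' := by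
  let R : Submodule K (M ⧸ S') := S.map S'.mkQ
  let Q : Module.End K (M ⧸ S') := S'.mapQ S' P fun y hy => hS' y hy
  have hR : ∀ y ∈ R, Q y ∈ R := by
    rintro _ ⟨y, hy, rfl⟩
    exact ⟨P y, hS y hy, rfl⟩
  let T : Module.End K R := Q.restrict hR
  have hdim : Module.finrank K R ≤ 2 := by
    let g := S'.mkQ.domRestrict S
    have h1 := LinearMap.finrank_range_add_finrank_ker g
    have h2 : LinearMap.range g = R := LinearMap.range_domRestrict _ _
    have h3 : Module.finrank K S' ≤ Module.finrank K (LinearMap.ker g) := by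
      refine LinearMap.finrank_le_finrank_of_injective
        (f := (Submodule.inclusion hle).codRestrict (LinearMap.ker g) fun y =>
          (LinearMap.mem_ker).mpr ((Submodule.Quotient.mk_eq_zero S').mpr y.2)) fun a b e => ?_
      exact Submodule.inclusion_injective hle (congrArg Subtype.val e :)
    rw [h2] at h1
    omega
  have hT : T = 1 := by
    refine end_pow_seven hK hdim (LinearMap.ext fun y => Subtype.ext ?_)
    obtain ⟨z, hz, hzy⟩ := y.2
    simp only [pow_succ, pow_zero, one_mul, Module.End.mul_apply, Module.End.one_apply, T,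
      LinearMap.restrict_apply, ← hzy]
    show S'.mapQ S' P _ (S'.mapQ S' P _ (S'.mapQ S' P _ (S'.mapQ S' P _ (S'.mapQ S' P _
      (S'.mapQ S' P _ (S'.mapQ S' P _ (S'.mkQ z))))))) = S'.mkQ z
    simp only [Submodule.mkQ_apply, Submodule.mapQ_apply, h7]
  have h := congrArg (fun f : Module.End K R => (f ⟨S'.mkQ x, x, hx, rfl⟩ : M ⧸ S')) hT
  exact (Submodule.Quotient.eq S').mp h

variable {F : Type u} [Field F]

/-- The order of the three-dimensional group over nine elements. -/
theorem card_sug_three (hF : SqField F 3) : Nat.card (Sug 3 F 3) = 6048 := by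
  have h1 := card_SUG hF (n := 3) (by norm_num)
  have h2 := card_UG hF 3
  rw [h2] at h1
  have e : (∏ i ∈ Finset.range 3, if Even i then 3 ^ (i + 1) + 1 else 3 ^ (i + 1) - 1 : ℕ) = 896 := by
    decide
  norm_num [e] at h1
  show Nat.card (SUG 3 F 3) = 6048
  omega

theorem center_sug_three (hF : SqField F 3) :
    Subgroup.center (Sug 3 F 3) = ⊥ := by
  obtain ⟨hfin, -⟩ := id hF
  refine Subgroup.eq_bot_of_card_eq _ ?_
  rw [card_center_SUG hF (by norm_num)]
  rfl

/-- No element of order three centralises the image of the three-dimensional group. -/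
theorem no_order_three {G : Type w} [Group G] (hF : SqField F 3) (f : Sug 4 F 3 →* G)
    (ψ : Sug 3 F 3 →* G) (hψ : ψ.ker ≤ Subgroup.center _) (hle : ψ.range ≤ f.range) {k : G}
    (hk : k ∈ f.range) (hk3 : k ^ 3 = 1) (hc : ∀ x, Commute k (ψ x)) : k = 1 := by
  obtain ⟨hfin, hcard⟩ := id hF
  have h3 : (3 : F) = 0 := three_eq_zero hF rfl
  have hK : Nat.card F = 9 := by rw [hcard]; norm_num
  -- an element of order seven
  haveI : Fact (Nat.Prime 7) := ⟨by norm_num⟩
  haveI : Finite (Sug 3 F 3) := Nat.finite_of_card_ne_zero (by rw [card_sug_three hF]; norm_num)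
  obtain ⟨s, hs⟩ := exists_prime_orderOf_dvd_card' (G := Sug 3 F 3) 7
    (by rw [card_sug_three hF]; norm_num)
  set y := ψ s with hy
  have hy7 : y ^ 7 = 1 := by rw [hy, ← map_pow, ← hs, pow_orderOf_eq_one, map_one]
  have hy1 : y ≠ 1 := fun e => by
    have := hψ e
    rw [center_sug_three hF, Subgroup.mem_bot] at this
    rw [this, orderOf_one] at hs
    norm_num at hs
  -- the kernel consists of scalars
  have hker : ∀ z ∈ f.ker, ∃ c : F, (∀ v, app z v = c • v) ∧ c ^ 4 = 1 := by
    intro z hz
    by_contra hcon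
    have htop : f.ker = ⊤ := normal_SUG_eq_top hF (by norm_num) (fun h => by omega) f.ker
      (MonoidHom.normal_ker f) ⟨z, hz, fun ⟨c, hc'⟩ => hcon ⟨c, hc', by
        have h := det_scalar z.1.1 hc'
        rw [mem_SUG.1 z.2, Units.val_one] at h
        exact h.symm⟩⟩
    apply hy1
    obtain ⟨w, hw⟩ := hle ⟨s, rfl⟩
    rw [hy, ← hw]
    exact MonoidHom.mem_ker.1 (htop.symm ▸ Subgroup.mem_top w)
  have hz4 : ∀ z ∈ f.ker, z ^ 4 = 1 := fun z hz => by
    obtain ⟨c, hc', hc4⟩ := hker z hz
    refine ext_basis fun l => ?_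
    simp only [pow_succ, pow_zero, one_mul, app_mul, app_one, hc', smul_smul]
    rw [show c * (c * (c * c)) = c ^ 4 by ring, hc4, one_smul]
  -- lifts
  obtain ⟨x0, hx0⟩ := hk
  obtain ⟨p0, hp0⟩ := hle ⟨s, rfl⟩
  set x := x0 ^ 4 with hx
  set p := p0 ^ 8 with hp
  have hfx : f x = k := by
    rw [hx, map_pow, hx0, show (4 : ℕ) = 3 + 1 by rfl, pow_succ, hk3, one_mul]
  have hfp : f p = y := by
    rw [hp, map_pow, hp0, show (8 : ℕ) = 7 + 1 by rfl, pow_succ, hy7, one_mul]
  have hx3 : x ^ 3 = 1 := by
    rw [hx, ← pow_mul, show 4 * 3 = 3 * 4 by rfl, pow_mul]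
    exact hz4 _ (by rw [MonoidHom.mem_ker, map_pow, hx0, hk3])
  have hp7 : p ^ 7 = 1 := by
    rw [hp, ← pow_mul, show 8 * 7 = 7 * 4 * 2 by rfl, pow_mul, pow_mul,
      hz4 _ (by rw [MonoidHom.mem_ker, map_pow, hp0, hy7]), one_pow]
  -- they commute
  have hxxx : ∀ v, app x (app x (app x v)) = v := fun v => by
    rw [← app_mul, ← app_mul, show x * x * x = x ^ 3 by rw [pow_succ, pow_two], hx3, app_one]
  obtain ⟨c, hc', hc4⟩ := hker (x * p * x⁻¹ * p⁻¹) (by
    rw [MonoidHom.mem_ker, map_mul, map_mul, map_mul, map_inv, map_inv, hfx, hfp, hy, (hc s).eq,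
      mul_inv_cancel_right, mul_inv_cancel])
  have hcomm0 : ∀ v, app x (app p v) = c • app p (app x v) := fun v => by
    rw [← hc' (app p (app x v)), ← app_mul, ← app_mul, ← app_mul]
    congr 1
    group
  have hc1 : c = 1 := by
    have hv : ∀ v, app p v = (c * (c * c)) • app p v := fun v => by
      conv_lhs => rw [← hxxx (app p v), hcomm0, app_smul, app_smul, hcomm0, app_smul, hcomm0,
        hxxx, smul_smul, smul_smul]
      rw [mul_assoc]
    have h1 := hv (dd (0 : Fin 4))
    have hne : app p (dd (0 : Fin 4)) ≠ 0 := fun e => by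
      have := congrArg (app p⁻¹) e
      rw [app_inv_app, app_zero] at this
      exact one_ne_zero (α := F) (by simpa [dd] using congrFun this 0)
    have h2 : c * (c * c) = 1 :=
      smul_left_injective F hne (by simpa using h1.symm)
    linear_combination hc4 - c * h2
  have hcomm : ∀ v, app x (app p v) = app p (app x v) := fun v => by
    rw [hcomm0, hc1, one_smul]
  -- the linear maps
  let N : (Fin 4 → F) →ₗ[F] (Fin 4 → F) :=
    (x.1.1 : (Fin 4 → F) →ₗ[F] (Fin 4 → F)) - LinearMap.id
  let P : Module.End F (Fin 4 → F) := (p.1.1 : (Fin 4 → F) →ₗ[F] (Fin 4 → F))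
  have hNd : ∀ v, N v = app x v - v := fun v => rfl
  have hPd : ∀ v, P v = app p v := fun v => rfl
  have hP7 : ∀ v, P (P (P (P (P (P (P v)))))) = v := fun v => by
    simp only [hPd, ← app_mul]
    rw [show p * (p * (p * (p * (p * (p * p))))) = p ^ 7 by simp only [pow_succ', pow_zero, mul_one], hp7,
      app_one]
  have hPN : ∀ v, P (N v) = N (P v) := fun v => by rw [hNd, hNd, hPd, hPd, app_sub, hcomm]
  have hN3 : ∀ v, N (N (N v)) = 0 := fun v => by
    simp only [hNd, app_sub, hxxx]
    have : (3 : F) • (app x v - app x (app x v)) = 0 := by rw [h3, zero_smul]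
    rw [← this]
    module
  have hkerinv : ∀ v ∈ LinearMap.ker N, P v ∈ LinearMap.ker N := fun v hv => by
    rw [LinearMap.mem_ker] at hv ⊢
    rw [← hPN, hv, map_zero]
  have hraninv : ∀ v ∈ LinearMap.range N, P v ∈ LinearMap.range N := fun v ⟨w, hw⟩ =>
    ⟨P w, by rw [← hPN, hw]⟩
  have hdim := LinearMap.finrank_range_add_finrank_ker N
  rw [Module.finrank_fintype_fun_eq_card, Fintype.card_fin] at hdim
  by_cases hN0 : ∀ v, N v = 0
  · have : x = 1 := ext_basis fun l => by
      rw [app_one]; exact sub_eq_zero.1 ((hNd _).symm.trans (hN0 (dd l)))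
    rw [← hfx, this, map_one]
  exfalso
  -- the element of order seven is unipotent
  have hu : ∀ v, P (P (P v)) = v := by
    have step : ∀ v, P (P (P v) - P v) - (P (P v) - P v) - (P (P v - v) - (P v - v)) = 0 →
        P (P (P v)) = v := fun v hv => by
      rw [← sub_eq_zero, ← hv]
      simp only [map_sub]
      have : (3 : F) • (P (P v) - P v) = 0 := by rw [h3, zero_smul]
      rw [← sub_eq_zero, ← this]
      module
    intro v
    refine step v ?_
    have e : ∀ w, P (P (P w) - P w) - (P (P w) - P w) - (P (P w - w) - (P w - w))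
        = P (P (P w - w) - (P w - w)) - (P (P w - w) - (P w - w)) := fun w => by
      simp only [map_sub]
    rw [e]
    have hd2 : Module.finrank F (LinearMap.ker N) ≠ 4 := fun h => hN0 fun w => by
      have htop : LinearMap.ker N = ⊤ := Submodule.eq_top_of_finrank_eq
        (by rw [h, Module.finrank_fintype_fun_eq_card, Fintype.card_fin])
      exact LinearMap.mem_ker.1 (htop ▸ Submodule.mem_top (x := w))
    have hd1 : 2 ≤ Module.finrank F (LinearMap.ker N) := by
      by_contra hlt
      let S := LinearMap.ker (N.comp N)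
      have hS : Module.finrank F S ≤ Module.finrank F (LinearMap.ker N) +
          Module.finrank F (LinearMap.ker N) := by
        let g := N.domRestrict S
        have h1 := LinearMap.finrank_range_add_finrank_ker g
        have h2 : LinearMap.range g ≤ LinearMap.ker N := by
          rintro _ ⟨w, rfl⟩
          exact LinearMap.mem_ker.2 (LinearMap.mem_ker.1 w.2)
        have h3' : Module.finrank F (LinearMap.ker g) ≤ Module.finrank F (LinearMap.ker N) :=
          LinearMap.finrank_le_finrank_of_injective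
            (f := (S.subtype.comp (LinearMap.ker g).subtype).codRestrict (LinearMap.ker N)
              fun w => LinearMap.mem_ker.2 (LinearMap.mem_ker.1 w.2 :))
            fun a b e => Subtype.ext (Subtype.ext (congrArg Subtype.val e :))
        have := Submodule.finrank_mono h2
        omega
      have hrS : LinearMap.range N ≤ S := by
        rintro _ ⟨w, rfl⟩
        exact LinearMap.mem_ker.2 (hN3 w)
      have := Submodule.finrank_mono hrS
      omega
    by_cases hd : Module.finrank F (LinearMap.ker N) = 2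
    · have hrk : ∀ w ∈ LinearMap.range N, P w - w = 0 := fun w hw =>
        (Submodule.mem_bot F).1 (apply_sub_mem hK hP7 _ ⊥ bot_le hraninv
          (fun z hz => by rw [(Submodule.mem_bot F).1 hz, map_zero]; exact zero_mem _)
          (by rw [finrank_bot]; omega) hw)
      have hkk : ∀ w ∈ LinearMap.ker N, P w - w = 0 := fun w hw =>
        (Submodule.mem_bot F).1 (apply_sub_mem hK hP7 _ ⊥ bot_le hkerinv
          (fun z hz => by rw [(Submodule.mem_bot F).1 hz, map_zero]; exact zero_mem _)
          (by rw [finrank_bot]; omega) hw)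
      have h1 : P v - v ∈ LinearMap.ker N := by
        rw [LinearMap.mem_ker, map_sub, ← hPN]
        exact hrk _ (LinearMap.mem_range_self N v)
      rw [hkk _ h1, map_zero, sub_zero]
    · have hr1 : Module.finrank F (LinearMap.range N) = 1 := by omega
      have hsub : LinearMap.range N ≤ LinearMap.ker N := by
        obtain ⟨⟨r, hr⟩, hr0, hr'⟩ := finrank_eq_one_iff'.mp hr1
        obtain ⟨lam, hlam⟩ := hr' ⟨N r, LinearMap.mem_range_self N r⟩
        have hlam' : lam • r = N r := congrArg Subtype.val hlam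
        have hzero : lam = 0 := by
          have h := hN3 r
          rw [← hlam', map_smul, ← hlam', smul_smul, map_smul, ← hlam', smul_smul] at h
          exact (mul_self_eq_zero.mp ((mul_eq_zero.mp ((smul_eq_zero.mp h).resolve_right
            fun e => hr0 (Subtype.ext e))).elim (fun e => e) (fun e => by rw [e, mul_zero])))
        intro w hw
        obtain ⟨t, ht⟩ := hr' ⟨w, hw⟩
        rw [LinearMap.mem_ker, ← show t • r = w from congrArg Subtype.val ht, map_smul, ← hlam',
          hzero, zero_smul, smul_zero]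
      have h1 : P v - v ∈ LinearMap.ker N :=
        apply_sub_mem hK hP7 ⊤ _ le_top (fun _ _ => Submodule.mem_top) hkerinv
          (by rw [finrank_top, Module.finrank_fintype_fun_eq_card, Fintype.card_fin]; omega)
          Submodule.mem_top
      have h2 : P (P v - v) - (P v - v) ∈ LinearMap.range N :=
        apply_sub_mem hK hP7 _ _ hsub hkerinv hraninv (by omega) h1
      have h3' := apply_sub_mem hK hP7 _ ⊥ bot_le hraninv
        (fun z hz => by rw [(Submodule.mem_bot F).1 hz, map_zero]; exact zero_mem _)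
        (by rw [finrank_bot]; omega) h2
      exact (Submodule.mem_bot F).1 h3'
  apply hy1
  have hp1 : p = 1 := ext_basis fun l => by
    rw [app_one]
    have h := hP7 (dd l)
    rw [hu, hu] at h
    rw [← hPd]
    exact h
  rw [← hfp, hp1, map_one]

/-- The kill condition for the base of the induction. -/
theorem Aligned.kill {n : ℕ} {G : Type w} [Group G] (A : Aligned F 3 n G) (hn : 3 ≤ n)
    (f : Sug 4 F 3 →* G) (hψ1 : (A.ψ (n - 3)).range ≤ f.range)
    (hψ2 : (A.ψ (n - 2)).range ≤ f.range) (hker : (A.ψ (n - 2)).ker ≤ Subgroup.center _) :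
    ∀ x ∈ A.pdata.Lk (n - 3), x.2 = 1 → x ^ 3 = 1 →
      (∀ h ∈ A.pdata.Lk (n - 2), Commute x h) → x = 1 := by
  intro x hx h2 h3 hc
  have hk : x.1 ∈ f.range := by
    suffices h : A.pdata.Lk (n - 3) ≤ f.range.comap (MonoidHom.fst _ _) from h hx
    refine (Subgroup.closure_le _).mpr fun y ⟨i, hi, hin, hy⟩ => ?_
    obtain ⟨a, rfl⟩ := (A.mem_gu hin).1 hy
    show A.φ i a ∈ f.range
    have hc' : i = n - 3 ∨ i = n - 2 ∨ i = n - 1 := by omega
    rcases hc' with rfl | rfl | rfl
    · rw [← A.h01 _ (by omega)]; exact hψ1 ⟨_, rfl⟩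
    · rw [← A.h01 _ (by omega)]; exact hψ2 ⟨_, rfl⟩
    · rw [show n - 1 = n - 2 + 1 by omega, ← A.h12 _ (by omega)]; exact hψ2 ⟨_, rfl⟩
  have hgen : ∀ z, Commute x.1 (A.ψ (n - 2) z) := by
    have hφ : ∀ i, n - 2 ≤ i → i < n → ∀ a, Commute x.1 (A.φ i a) := fun i hi hin a =>
      congrArg Prod.fst (hc _ (A.pdata.GU_le_Lk hi hin ((A.mem_gu hin).2 ⟨a, rfl⟩))).eq
    intro z
    have htop := blocks_generate (F := F) A.hF A.hq
    suffices hle : (e01 (F := F) (q := 3)).range ⊔ e12.range ≤
        (Subgroup.centralizer {x.1}).comap (A.ψ (n - 2)) by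
      exact (Subgroup.mem_centralizer_singleton_iff.1 (hle (htop ▸ Subgroup.mem_top z))).symm
    refine sup_le ?_ ?_
    · rintro _ ⟨a, rfl⟩
      refine Subgroup.mem_centralizer_singleton_iff.2 ?_
      show A.ψ (n - 2) (e01 a) * x.1 = x.1 * A.ψ (n - 2) (e01 a)
      have := hφ (n - 2) le_rfl (by omega) a
      rw [← A.h01 _ (by omega)] at this
      exact this.eq.symm
    · rintro _ ⟨a, rfl⟩
      refine Subgroup.mem_centralizer_singleton_iff.2 ?_
      show A.ψ (n - 2) (e12 a) * x.1 = x.1 * A.ψ (n - 2) (e12 a)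
      have := hφ (n - 2 + 1) (by omega) (by omega) a
      rw [← A.h12 _ (by omega)] at this
      exact this.eq.symm
  have h1 : x.1 = 1 := no_order_three A.hF f
    ((A.ψ (n - 2)).comp (suEquiv 3 F 3).symm.toMonoidHom)
    (fun z hz => by
      have hz' := hker hz
      rw [Subgroup.mem_center_iff] at hz' ⊢
      intro g
      have := congrArg (suEquiv 3 F 3) (hz' ((suEquiv 3 F 3).symm g))
      simpa using this)
    (fun _ ⟨z, hz⟩ => hψ2 ⟨_, hz⟩) hk (congrArg Prod.fst h3) fun z => hgen _
  exact Prod.ext h1 h2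

end

end Cfsg.Agent.PhanSU
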