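import Cfsg.Agent.PhanSU.Axis

/-!
Two commuting-torus subgroups generating the three-dimensional group form a standard pair.
-/

set_option autoImplicit false
set_option linter.style.haveILetI false

open scoped Classical

namespace Cfsg.Agent.PhanSU

open Cfsg.Agent.Classical.U Matrix

universe u v

noncomputable section

variable {F : Type u} [Field F] {q : ℕ}

/-- A two-dimensional group fixing a moved basis vector is the conjugated block. -/
theorem range_eq_conj_block (hF : SqField F q) (ι : Cfsg.SU 2 F q →* Sug 3 F q)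
    (hι : Function.Injective ι) (g : Sug 3 F q) {f : Fin 2 → Fin 3} (hf : Function.Injective f)
    (l : Fin 3) (hl : ∀ i, i ∉ Finset.univ.image f → i = l)
    (hfix : ∀ x, app (ι x) (app g (dd l)) = app g (dd l)) :
    ι.range = ((MulAut.conj g).toMonoidHom.comp (embS hf)).range := by
  obtain ⟨hfin, -⟩ := id hF
  have hmem : ∀ x, g⁻¹ * ι x * g ∈ (embS (F := F) (q := q) hf).range := fun x => by
    rw [range_embS hf hF]
    intro i hi
    rw [hl i hi, app_mul, app_mul, hfix, app_inv_app]
  choose b hb using hmem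
  have hinj : Function.Injective b := fun x y h => hι (by
    have h1 := hb x
    rw [h, hb y] at h1
    exact (mul_left_cancel (mul_right_cancel h1)).symm)
  ext y
  constructor
  · rintro ⟨x, rfl⟩
    refine ⟨b x, ?_⟩
    show g * embS hf (b x) * g⁻¹ = ι x
    rw [hb]; group
  · rintro ⟨z, rfl⟩
    obtain ⟨x, rfl⟩ := (Finite.injective_iff_surjective.mp hinj) z
    refine ⟨x, ?_⟩
    show ι x = g * embS hf (b x) * g⁻¹
    rw [hb]; group

theorem mem_supp01 {v : Fin 3 → F} (h : v 2 = 0) :
    v ∈ supp (Finset.univ.image (![0, 1] : Fin 2 → Fin 3)) := by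
  intro l hl
  fin_cases l
  · simp at hl
  · simp at hl
  · exact h

theorem off01 {i : Fin 3} (h : i ∉ Finset.univ.image (![0, 1] : Fin 2 → Fin 3)) : i = 2 := by
  fin_cases i <;> simp at h ⊢

theorem off12 {i : Fin 3} (h : i ∉ Finset.univ.image (![1, 2] : Fin 2 → Fin 3)) : i = 0 := by
  fin_cases i <;> simp at h ⊢

/-- An element with order a divisor of `q + 1` and a fixed vector is trivial. -/
theorem su2_no_fixed (hF : SqField F q) {x : Cfsg.SU 2 F q} (hord : x ^ (q + 1) = 1)
    {w : Fin 2 → F} (hw : w ≠ 0) (hfix : (sm x).mulVec w = w) : x = 1 := by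
  have hd0 : (sm x - 1).det = 0 := by
    by_contra hne
    refine hw (Matrix.eq_zero_of_mulVec_eq_zero hne ?_)
    rw [Matrix.sub_mulVec, hfix, Matrix.one_mulVec, sub_self]
  have hd : sm x 0 0 * sm x 1 1 - sm x 0 1 * sm x 1 0 = 1 :=
    (Matrix.det_fin_two _).symm.trans x.1.2
  rw [Matrix.det_fin_two] at hd0
  simp at hd0
  have htr : sm x 0 0 + sm x 1 1 = 2 := by linear_combination hd - hd0
  set N := sm x - 1 with hN
  have hNN : N * N = 0 := by
    ext i j
    fin_cases i <;> fin_cases j <;> simp [hN, Matrix.mul_apply, Fin.sum_univ_two]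
    · linear_combination (sm x 0 0) * htr - hd
    · linear_combination (sm x 0 1) * htr
    · linear_combination (sm x 1 0) * htr
    · linear_combination (sm x 1 1) * htr - hd
  have hpw : ∀ k : ℕ, sm (x ^ k) = 1 + (k : F) • N := by
    intro k
    induction k with
    | zero => simp [sm_one]
    | succ k ih =>
      rw [pow_succ, sm_mul, ih, show sm x = 1 + N by rw [hN]; abel, Matrix.add_mul, Matrix.one_mul,
        Matrix.mul_add, Matrix.mul_one, Matrix.smul_mul, hNN, smul_zero, add_zero, Nat.cast_succ,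
        add_smul, one_smul]
      abel
  obtain ⟨p, k, hp, hcp, hpk⟩ := hF.exists_char
  have hq0 : (q : F) = 0 := by
    rw [hpk, Nat.cast_pow, CharP.cast_eq_zero, zero_pow]
    rintro rfl
    have := hF.one_lt
    simp at hpk
    omega
  have h := hpw (q + 1)
  rw [hord, sm_one, Nat.cast_succ, hq0, zero_add, one_smul, left_eq_add, hN, sub_eq_zero] at h
  exact sm_ext h

/-- An element of a conjugated block of order dividing `q + 1` fixes only the line of the axis. -/
theorem fixed_line (hF : SqField F q) {x : Cfsg.SU 2 F q} (hord : x ^ (q + 1) = 1) (hx : x ≠ 1)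
    {g d : Sug 3 F q} (hd : d = g * embS injective01 x * g⁻¹) {v : Fin 3 → F}
    (hv : app d v = v) : ∃ c : F, v = c • app g (dd 2) := by
  set w := app g⁻¹ v with hw
  have hwfix : app (embS injective01 x) w = w := by
    have := congrArg (app g⁻¹) hv
    rwa [hd, app_mul, app_mul, app_inv_app] at this
  have h01 : w ∘ ![0, 1] = 0 := by
    by_contra hne
    refine hx (su2_no_fixed hF hord hne (funext fun i => ?_))
    have h := congrFun hwfix (![0, 1] i)
    change app (suEquiv 3 F q (emb injective01 x)) w (![0, 1] i) = _ at h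
    rw [app_suEquiv, sm_emb, bmat_mulVec_block] at h
    exact h
  refine ⟨w 2, ?_⟩
  rw [← app_smul, show w 2 • (dd 2 : Fin 3 → F) = w from ?_, hw, app_app_inv]
  funext i
  have h0 : w 0 = 0 := congrFun h01 0
  have h1 : w 1 = 0 := congrFun h01 1
  fin_cases i <;> simp [dd, h0, h1]

/-- The standard pair from commuting cyclic subgroups. -/
theorem exists_standard {G : Type v} [Group G] (hF : SqField F q) (hq : 4 ≤ q)
    {A B : Subgroup G} (eA : Cfsg.SU 2 F q ≃* A) (eB : Cfsg.SU 2 F q ≃* B)
    (χ : ↥(A ⊔ B) ≃* Cfsg.SU 3 F q) (D D' : Subgroup G)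
    (hD : D ≤ A ∧ IsCyclic D ∧ Nat.card D = q + 1)
    (hD' : D' ≤ B ∧ IsCyclic D' ∧ Nat.card D' = q + 1)
    (hcomm : ∀ x ∈ D, ∀ y ∈ D', x * y = y * x) :
    Cfsg.IsStandardUnitaryPair (A ⊔ B) A B F q := by
  let J : ↥(A ⊔ B) ≃* Sug 3 F q := χ.trans (suEquiv 3 F q)
  let iA : Cfsg.SU 2 F q →* Sug 3 F q :=
    J.toMonoidHom.comp ((Subgroup.inclusion le_sup_left).comp eA.toMonoidHom)
  let iB : Cfsg.SU 2 F q →* Sug 3 F q :=
    J.toMonoidHom.comp ((Subgroup.inclusion le_sup_right).comp eB.toMonoidHom)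
  have hiA : Function.Injective iA :=
    J.injective.comp ((Subgroup.inclusion_injective (le_sup_left (b := B))).comp eA.injective)
  have hiB : Function.Injective iB :=
    J.injective.comp ((Subgroup.inclusion_injective (le_sup_right (a := A))).comp eB.injective)
  obtain ⟨u, hu, hAu⟩ := exists_axis hF hq iA hiA
  obtain ⟨u', hu', hBu⟩ := exists_axis hF hq iB hiB
  have hT : ∀ v : Fin 3 → F, v ∈ supp (Finset.univ : Finset (Fin 3)) := fun v l hl =>
    absurd (Finset.mem_univ l) hl
  -- torus elements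
  have gen : ∀ (C : Subgroup G) (E : Subgroup G) (eC : Cfsg.SU 2 F q ≃* C),
      E ≤ C ∧ IsCyclic E ∧ Nat.card E = q + 1 →
      ∃ x : Cfsg.SU 2 F q, x ^ (q + 1) = 1 ∧ x ≠ 1 ∧ (eC x : G) ∈ E := by
    intro C E eC hE
    obtain ⟨hle, hcyc, hcard⟩ := hE
    obtain ⟨⟨a, ha⟩, hgen⟩ := hcyc.exists_generator
    refine ⟨eC.symm ⟨a, hle ha⟩, ?_, ?_, by rw [MulEquiv.apply_symm_apply]; exact ha⟩
    · rw [← map_pow, MulEquiv.map_eq_one_iff]
      refine Subtype.ext ?_
      have : (⟨a, ha⟩ : E) ^ (q + 1) = 1 := by rw [← hcard]; exact pow_card_eq_one'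
      simpa using congrArg Subtype.val this
    · rw [Ne, MulEquiv.map_eq_one_iff]
      intro h
      have h1 : Nat.card E = 1 := Nat.card_eq_one_iff_unique.mpr ⟨⟨fun y z => by
        have ha1 : (⟨a, ha⟩ : E) = 1 := Subtype.ext (congrArg Subtype.val h :)
        obtain ⟨i, rfl⟩ := Subgroup.mem_zpowers_iff.mp (hgen y)
        obtain ⟨j, rfl⟩ := Subgroup.mem_zpowers_iff.mp (hgen z)
        rw [ha1, _root_.one_zpow, _root_.one_zpow]⟩, ⟨1⟩⟩
      omega
  obtain ⟨x, hx1, hxne, hxD⟩ := gen A D eA hD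
  obtain ⟨y, hy1, hyne, hyD⟩ := gen B D' eB hD'
  have hxy : iA x * iB y = iB y * iA x := by
    simp only [iA, iB, MonoidHom.comp_apply, MulEquiv.coe_toMonoidHom, ← map_mul]
    exact congrArg J (Subtype.ext (hcomm _ hxD _ hyD))
  have hfix : ∀ (ι : Cfsg.SU 2 F q →* Sug 3 F q), Function.Injective ι → ∀ a : Fin 3 → F,
      herm q a a = 1 → (∀ z, app (ι z) a = a) → ∀ z, z ^ (q + 1) = 1 → z ≠ 1 →
      ∀ v, app (ι z) v = v → ∃ c : F, v = c • a := by
    intro ι hι a ha hι' z hz hzne v hv
    obtain ⟨g, -, hg⟩ := exists_fixT_map hF (T := Finset.univ) (by simp) (hT (dd 2)) (hT a)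
      (dd_unit hF 2) ha
    have hr := range_eq_conj_block hF ι hι g injective01 2 (fun i hi => off01 hi)
      (fun x => by rw [hg]; exact hι' x)
    obtain ⟨w, hw⟩ : ι z ∈ ((MulAut.conj g).toMonoidHom.comp (embS injective01)).range :=
      hr ▸ ⟨z, rfl⟩
    have hw1 : w ^ (q + 1) = 1 ∧ w ≠ 1 := by
      have hinj : Function.Injective ((MulAut.conj g).toMonoidHom.comp (embS (F := F) (q := q) injective01)) :=
        (MulAut.conj g).injective.comp (embS_injective _)
      refine ⟨hinj (by rw [map_pow, hw, ← map_pow, hz, map_one, map_one]), fun e => hzne (hι ?_)⟩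
      rw [← hw, e, map_one, map_one]
    rw [← hg]
    exact fixed_line hF hw1.1 hw1.2 hw.symm hv
  have hperp : herm q u' u = 0 := by
    by_contra hne
    obtain ⟨c, hc⟩ := hfix iB hiB u' hu' hBu y hy1 hyne (app (iA x) u') (by
      rw [← app_mul, ← hxy, app_mul, hBu])
    have hc1 : c = 1 := by
      have h := app_herm (iA x) u' u
      rw [hc, hAu, herm_smul_left] at h
      exact mul_right_cancel₀ hne (h.trans (one_mul _).symm)
    rw [hc1, one_smul] at hc
    obtain ⟨k, hk⟩ := hfix iA hiA u hu hAu x hx1 hxne u' hc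
    have hBu2 : ∀ z, app (iB z) u = u := by
      have hk0 : k ≠ 0 := fun e => hne (by rw [hk, e, zero_smul, herm_zero_left])
      intro z
      have h := hBu z
      rw [hk, app_smul] at h
      exact smul_right_injective _ hk0 h
    let S : Subgroup (Sug 3 F q) :=
      { carrier := {g | app g u = u}
        mul_mem' := fun {a b} ha hb => by
          show app (a * b) u = u
          rw [app_mul, show app b u = u from hb, show app a u = u from ha]
        one_mem' := rfl
        inv_mem' := fun {a} ha => by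
          show app a⁻¹ u = u
          conv_lhs => arg 2; rw [← show app a u = u from ha]
          exact app_inv_app a u }
    let S' : Subgroup G := (S.comap J.toMonoidHom).map (A ⊔ B).subtype
    have hAS : A ≤ S' := fun a ha => ⟨⟨a, le_sup_left (b := B) ha⟩, by
      show app (J _) u = u
      have := hAu (eA.symm ⟨a, ha⟩)
      simpa [iA, Subgroup.inclusion] using this, rfl⟩
    have hBS : B ≤ S' := fun b hb => ⟨⟨b, le_sup_right (a := A) hb⟩, by
      show app (J _) u = u
      have := hBu2 (eB.symm ⟨b, hb⟩)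
      simpa [iB, Subgroup.inclusion] using this, rfl⟩
    obtain ⟨v, hv, hv1, hvu⟩ := exists_unit_perp hF (isON_singleton hF hu) (T := Finset.univ)
      (fun p _ => hT p) (by simp)
    obtain ⟨g, -, hg⟩ := exists_fixT_map hF (T := Finset.univ) (by simp) (hT u) (hT v) hu hv1
    obtain ⟨⟨s, hs⟩, hsS, hse⟩ := (sup_le hAS hBS) (J.symm g).2
    have hS : app g u = u := by
      have : (⟨s, hs⟩ : ↥(A ⊔ B)) = J.symm g := Subtype.ext hse
      rw [this] at hsS
      have h : app (J (J.symm g)) u = u := hsS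
      rwa [MulEquiv.apply_symm_apply] at h
    have := hvu u (Finset.mem_singleton_self u)
    rw [← hg, hS, hu] at this
    exact one_ne_zero this
  -- the frame
  obtain ⟨g0, -, hg0⟩ := exists_fixT_map hF (T := Finset.univ) (by simp) (hT (dd 2)) (hT u)
    (dd_unit hF 2) hu
  have hu'2 : app g0⁻¹ u' ∈ supp (Finset.univ.image (![0, 1] : Fin 2 → Fin 3)) := by
    refine mem_supp01 ?_
    rw [← herm_dd hF 2 (app g0⁻¹ u'), ← app_herm g0, app_app_inv, hg0]
    exact hperp
  obtain ⟨g1, hg1m, hg1⟩ := exists_fixT_map hF (T := Finset.univ.image (![0, 1] : Fin 2 → Fin 3))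
    (by rw [Finset.card_image_of_injective _ injective01]; simp)
    (dd_mem_supp (show (0 : Fin 3) ∈ Finset.univ.image (![0, 1] : Fin 2 → Fin 3) by simp)) hu'2
    (dd_unit hF 0) (by rw [app_herm]; exact hu')
  set g := g0 * g1 with hg
  have hge2 : app g (dd 2) = u := by
    rw [hg, app_mul, hg1m 2 (by simp), hg0]
  have hge0 : app g (dd 0) = u' := by rw [hg, app_mul, hg1, app_app_inv]
  have rA := range_eq_conj_block hF iA hiA g injective01 2 (fun i hi => off01 hi)
    (fun x => by rw [hge2]; exact hAu x)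
  have rB := range_eq_conj_block hF iB hiB g injective12 0 (fun i hi => off12 hi)
    (fun x => by rw [hge0]; exact hBu x)
  let ψ : Cfsg.SU 3 F q ≃* ↥(A ⊔ B) :=
    (suEquiv 3 F q).trans ((MulAut.conj g).trans J.symm)
  have key : ∀ (C : Subgroup G) (hC : C ≤ A ⊔ B) (eC : Cfsg.SU 2 F q ≃* C) (f : Fin 2 → Fin 3)
      (hf : Function.Injective f),
      (J.toMonoidHom.comp ((Subgroup.inclusion hC).comp eC.toMonoidHom)).range =
        ((MulAut.conj g).toMonoidHom.comp (embS hf)).range →
      (emb (F := F) (q := q) hf).range.map ((A ⊔ B).subtype.comp ψ.toMonoidHom) = C := by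
    intro C hC eC f hf hr
    ext a
    constructor
    · rintro ⟨-, ⟨z, rfl⟩, rfl⟩
      obtain ⟨w, hw⟩ : MulAut.conj g (embS hf z) ∈
          (J.toMonoidHom.comp ((Subgroup.inclusion hC).comp eC.toMonoidHom)).range :=
        hr ▸ ⟨z, rfl⟩
      have hψ : ψ (emb hf z) = Subgroup.inclusion hC (eC w) := by
        show J.symm (MulAut.conj g (embS hf z)) = _
        rw [← hw]
        exact J.symm_apply_apply _
      show ((ψ (emb hf z) : ↥(A ⊔ B)) : G) ∈ C
      rw [hψ]
      exact (eC w).2
    · intro ha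
      obtain ⟨z, hz⟩ : J (Subgroup.inclusion hC (eC (eC.symm ⟨a, ha⟩))) ∈
          ((MulAut.conj g).toMonoidHom.comp (embS hf)).range := hr ▸ ⟨_, rfl⟩
      refine ⟨_, ⟨z, rfl⟩, ?_⟩
      show ((ψ (emb hf z) : ↥(A ⊔ B)) : G) = a
      have hψ : ψ (emb hf z) = Subgroup.inclusion hC ⟨a, ha⟩ := by
        show J.symm (MulAut.conj g (embS hf z)) = _
        rw [show MulAut.conj g (embS hf z) = _ from hz, J.symm_apply_apply, eC.apply_symm_apply]
      rw [hψ]; rfl
  refine Or.inl ⟨ψ, ?_, ?_⟩
  · rw [suBlock01]; exact key A le_sup_left eA _ injective01 rA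
  · rw [suBlock12]; exact key B le_sup_right eB _ injective12 rB

end

end Cfsg.Agent.PhanSU
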